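import Mathlib

/-!
# S1920, the code lemma: every subcode of the even code of length six is invariant under a transposition of two
coordinates of the same colour, the number of coordinates of each colour being even
-/

set_option autoImplicit false

namespace Cfsg.Agent.H10.Co3

/-- words of length six -/
abbrev W := Fin 6 → Bool

/-- parity -/
def par (u : W) : Bool := (u 0 ^^ u 1) ^^ (u 2 ^^ u 3) ^^ (u 4 ^^ u 5)

/-- sum of words -/
def sm (u v : W) : W := fun i => u i ^^ v i

/-- `u = e_i + e_j` -/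
def isdd (u : W) (i j : Fin 6) : Bool := decide (∀ k, u k = (decide (k = i) || decide (k = j)))

/-! ### one colour -/

theorem step_six : ∀ u : W, par u = false → u 0 ≠ u 1 → (∃ i j, i ≠ j ∧ isdd u i j) ∨
    ∃ i j, i ≠ j ∧ u i = false ∧ u j = false ∧ ∀ k, k ≠ i → k ≠ j → u k = true := by
  decide +kernel

theorem step_six' : ∀ (v : W) (i j : Fin 6), par v = false → i ≠ j → v i ≠ v j → (∃ k l, k ≠ l ∧ isdd v k l) ∨
    (∃ k l, k ≠ l ∧ isdd (fun m => if m = i ∨ m = j then v m else !(v m)) k l) := by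
  decide +kernel

theorem one_colour (D : Set W) (hp : ∀ d ∈ D, par d = false) (ha : ∀ u ∈ D, ∀ v ∈ D, sm u v ∈ D) :
    ∃ i j, i ≠ j ∧ ((∀ d ∈ D, d i = d j) ∨ ∃ d ∈ D, isdd d i j = true) := by
  by_contra hc
  push Not at hc
  have h1 : ∀ d ∈ D, ∀ i j, i ≠ j → isdd d i j = true → False := fun d hd i j hij h => (hc i j hij).2 d hd h
  have h2 : ∀ i j, i ≠ j → ∃ d ∈ D, d i ≠ d j := fun i j hij => (hc i j hij).1
  obtain ⟨u, hu, hu'⟩ := h2 0 1 (by decide)
  rcases step_six u (hp u hu) hu' with ⟨i, j, hij, h⟩ | ⟨i, j, hij, hi, hj, hk⟩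
  · exact h1 u hu i j hij h
  · obtain ⟨v, hv, hv'⟩ := h2 i j hij
    rcases step_six' v i j (hp v hv) hij hv' with ⟨k, l, hkl, h⟩ | ⟨k, l, hkl, h⟩
    · exact h1 v hv k l hkl h
    · have e : sm u v = fun m => if m = i ∨ m = j then v m else !(v m) := by
        funext m
        by_cases hm : m = i ∨ m = j
        · rcases hm with rfl | rfl
          · simp [sm, hi]
          · simp [sm, hj]
        · rw [not_or] at hm
          simp [sm, hm.1, hm.2, hk m hm.1 hm.2]
      refine h1 _ (ha u hu v hv) k l hkl ?_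
      rw [e]
      exact h

/-! ### colours `{0,1,2,3}`, `{4,5}` -/

theorem stepA : ∀ u : W, par u = false → u 4 ≠ u 5 → ∃ a b c : Fin 4, a ≠ b ∧ a ≠ c ∧ b ≠ c ∧
    u (Fin.castAdd 2 a) = u (Fin.castAdd 2 b) ∧ u (Fin.castAdd 2 a) = u (Fin.castAdd 2 c) := by
  decide +kernel

theorem stepB : ∀ (t : W) (x y : Fin 4), par t = false → t 4 = false → t 5 = false → x ≠ y →
    t (Fin.castAdd 2 x) ≠ t (Fin.castAdd 2 y) →
    (∃ k l : Fin 4, k ≠ l ∧ isdd t (Fin.castAdd 2 k) (Fin.castAdd 2 l) = true) := by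
  decide +kernel

theorem par_sm : ∀ u v : W, par u = false → par v = false → par (sm u v) = false := by
  intro u v h1 h2
  simp only [par, sm] at *
  revert h1 h2
  generalize u 0 = a0
  generalize u 1 = a1
  generalize u 2 = a2
  generalize u 3 = a3
  generalize u 4 = a4
  generalize u 5 = a5
  generalize v 0 = b0
  generalize v 1 = b1
  generalize v 2 = b2
  generalize v 3 = b3
  generalize v 4 = b4
  generalize v 5 = b5
  revert a0 a1 a2 a3 a4 a5 b0 b1 b2 b3 b4 b5
  decide +kernel

theorem two_colour (D : Set W) (hp : ∀ d ∈ D, par d = false) (ha : ∀ u ∈ D, ∀ v ∈ D, sm u v ∈ D) :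
    ((∀ d ∈ D, d 4 = d 5) ∨
    ∃ i j : Fin 4, i ≠ j ∧ ((∀ d ∈ D, d (Fin.castAdd 2 i) = d (Fin.castAdd 2 j)) ∨
      ∃ d ∈ D, isdd d (Fin.castAdd 2 i) (Fin.castAdd 2 j) = true)) := by
  by_contra hc
  rw [not_or] at hc
  obtain ⟨hc1, hc2⟩ := hc
  push Not at hc1 hc2
  obtain ⟨u, hu, hu'⟩ := hc1
  obtain ⟨a, b, c, hab, hac, hbc, e1, e2⟩ := stepA u (hp u hu) hu'
  -- separate two of `a, b, c` by an element constant on `{4, 5}`
  have sep : ∀ x y : Fin 4, x ≠ y → u (Fin.castAdd 2 x) = u (Fin.castAdd 2 y) →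
      ∃ v ∈ D, v 4 = true ∧ v 5 = true ∧ v (Fin.castAdd 2 x) ≠ v (Fin.castAdd 2 y) := by
    intro x y hxy he
    obtain ⟨v0, hv0, hs⟩ := (hc2 x y hxy).1
    obtain ⟨v, hv, h45, hs'⟩ : ∃ v ∈ D, v 4 = v 5 ∧ v (Fin.castAdd 2 x) ≠ v (Fin.castAdd 2 y) := by
      by_cases h : v0 4 = v0 5
      · exact ⟨v0, hv0, h, hs⟩
      · refine ⟨sm u v0, ha u hu v0 hv0, ?_, ?_⟩
        · simp only [sm]
          revert h hu'
          generalize u 4 = p
          generalize u 5 = q
          generalize v0 4 = r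
          generalize v0 5 = t
          revert p q r t
          decide
        · simp only [sm, he]
          intro h'
          apply hs
          simpa using h'
    refine ⟨v, hv, ?_, ?_, hs'⟩
    · by_contra h4
      have h4' : v 4 = false := by simpa using h4
      obtain ⟨k, l, hkl, h⟩ := stepB v x y (hp v hv) h4' (h45 ▸ h4') hxy hs'
      exact absurd h ((hc2 k l hkl).2 v hv)
    · by_contra h5
      have h5' : v 5 = false := by simpa using h5
      obtain ⟨k, l, hkl, h⟩ := stepB v x y (hp v hv) (h45.trans h5') h5' hxy hs'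
      exact absurd h ((hc2 k l hkl).2 v hv)
  obtain ⟨v, hv, v4, v5, hs⟩ := sep a b hab e1
  -- `v` does not separate two of `a, b, c`
  obtain ⟨x, y, hxy, he, hvxy⟩ : ∃ x y : Fin 4, x ≠ y ∧ u (Fin.castAdd 2 x) = u (Fin.castAdd 2 y) ∧
      v (Fin.castAdd 2 x) = v (Fin.castAdd 2 y) := by
    by_cases h : v (Fin.castAdd 2 a) = v (Fin.castAdd 2 c)
    · exact ⟨a, c, hac, e2, h⟩
    · refine ⟨b, c, hbc, e1.symm.trans e2, ?_⟩
      revert hs h
      generalize v (Fin.castAdd 2 a) = p
      generalize v (Fin.castAdd 2 b) = q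
      generalize v (Fin.castAdd 2 c) = r
      revert p q r
      decide
  obtain ⟨w, hw, w4, w5, hs'⟩ := sep x y hxy he
  have hvw := ha v hv w hw
  obtain ⟨k, l, hkl, h⟩ := stepB (sm v w) x y (hp _ hvw) (by simp [sm, v4, w4]) (by simp [sm, v5, w5]) hxy (by
    simp only [sm, hvxy]
    intro h'
    exact hs' (by simpa using h'))
  exact absurd h ((hc2 k l hkl).2 _ hvw)

/-! ### all colourings -/

/-- every even colouring is constant or has, after a permutation, the colour classes `{0,1,2,3}`, `{4,5}` -/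
theorem colour : ∀ f : W, par f = false → (∀ i j, f i = f j) ∨ ∃ e : Equiv.Perm (Fin 6),
    f (e 0) = f (e 1) ∧ f (e 0) = f (e 2) ∧ f (e 0) = f (e 3) ∧ f (e 4) = f (e 5) := by
  decide +kernel

/-- **The code lemma.** -/
theorem code_lemma (D : Set W) (hp : ∀ d ∈ D, par d = false) (ha : ∀ u ∈ D, ∀ v ∈ D, sm u v ∈ D) (f : W)
    (hf : par f = false) :
    ∃ i j, i ≠ j ∧ f i = f j ∧ ((∀ d ∈ D, d i = d j) ∨ ∃ d ∈ D, isdd d i j = true) := by
  rcases colour f hf with h | ⟨e, h1, h2, h3, h4⟩
  · obtain ⟨i, j, hij, hd⟩ := one_colour D hp ha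
    exact ⟨i, j, hij, h i j, hd⟩
  · have hpe : ∀ u : W, par (fun i => u (e i)) = par u := by
      intro u
      have key : ∀ u : W, par u = true ↔ (∑ i, if u i then (1 : ZMod 2) else 0) = 1 := by
        intro u
        simp only [par, Fin.sum_univ_six]
        generalize u 0 = a0
        generalize u 1 = a1
        generalize u 2 = a2
        generalize u 3 = a3
        generalize u 4 = a4
        generalize u 5 = a5
        revert a0 a1 a2 a3 a4 a5
        decide +kernel
      rw [Bool.eq_iff_iff, key, key, ← Equiv.sum_comp e (fun i => if u i then (1 : ZMod 2) else 0)]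
    have hdd : ∀ (d : W) (i j : Fin 6), isdd (fun k => d (e k)) i j = true → isdd d (e i) (e j) = true := by
      intro d i j h
      simp only [isdd, decide_eq_true_eq] at h ⊢
      intro k
      have := h (e.symm k)
      simp only [Equiv.apply_symm_apply] at this
      rw [this]
      simp only [Equiv.symm_apply_eq]
    have hall : ∀ a : Fin 4, f (e 0) = f (e (Fin.castAdd 2 a)) := by
      intro a
      fin_cases a
      · rfl
      · exact h1
      · exact h2
      · exact h3
    rcases two_colour {d | ∃ u ∈ D, d = fun k => u (e k)} (by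
      rintro _ ⟨u, hu, rfl⟩
      rw [hpe]
      exact hp u hu) (by
      rintro _ ⟨u, hu, rfl⟩ _ ⟨v, hv, rfl⟩
      exact ⟨sm u v, ha u hu v hv, rfl⟩) with h | ⟨i, j, hij, h⟩
    · exact ⟨e 4, e 5, fun he => absurd (e.injective he) (by decide), h4, Or.inl fun d hd => h _ ⟨d, hd, rfl⟩⟩
    · refine ⟨e (Fin.castAdd 2 i), e (Fin.castAdd 2 j), fun he => hij (Fin.castAdd_injective 4 2 (e.injective he)),
        (hall i).symm.trans (hall j), ?_⟩
      rcases h with h | ⟨d, ⟨u, hu, rfl⟩, hd⟩
      · exact Or.inl fun d hd => h _ ⟨d, hd, rfl⟩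
      · exact Or.inr ⟨u, hu, hdd u _ _ hd⟩

/-- the transposition preserves the code -/
theorem code_swap (D : Set W) (hp : ∀ d ∈ D, par d = false) (ha : ∀ u ∈ D, ∀ v ∈ D, sm u v ∈ D) (f : W)
    (hf : par f = false) :
    ∃ i j, i ≠ j ∧ f i = f j ∧ ∀ d ∈ D, (fun k => d (Equiv.swap i j k)) ∈ D := by
  obtain ⟨i, j, hij, hfij, h⟩ := code_lemma D hp ha f hf
  refine ⟨i, j, hij, hfij, fun d hd => ?_⟩
  have key : d i = d j → (fun k => d (Equiv.swap i j k)) = d := by
    intro h
    funext k
    by_cases h1 : k = i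
    · subst h1
      rw [Equiv.swap_apply_left, h]
    · by_cases h2 : k = j
      · subst h2
        rw [Equiv.swap_apply_right, h]
      · rw [Equiv.swap_apply_of_ne_of_ne h1 h2]
  rcases h with h | ⟨t, ht, htd⟩
  · rw [key (h d hd)]
    exact hd
  · by_cases hdd : d i = d j
    · rw [key hdd]
      exact hd
    · have e : (fun k => d (Equiv.swap i j k)) = sm d t := by
        simp only [isdd, decide_eq_true_eq] at htd
        funext k
        simp only [sm, htd k]
        by_cases h1 : k = i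
        · subst h1
          rw [Equiv.swap_apply_left]
          simp only [decide_true, Bool.true_or, Bool.xor_true]
          exact (Bool.not_eq.2 (fun h => hdd h)).symm ▸ (by simp)
        · by_cases h2 : k = j
          · subst h2
            rw [Equiv.swap_apply_right]
            simp only [decide_true, Bool.or_true, Bool.xor_true]
            exact (Bool.not_eq.2 (fun h => hdd h.symm)).symm ▸ (by simp)
          · rw [Equiv.swap_apply_of_ne_of_ne h1 h2]
            simp [h1, h2]
      rw [e]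
      exact ha d hd t ht

end Cfsg.Agent.H10.Co3
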