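import Mathlib
import Cfsg.Agent.LieClassical.OrthTrans
import Cfsg.Agent.LieClassical.OrthFinite

/-!
# S1920, rows `POmega`: membership in `E Q` (task OM, helper10)

`hG : Good Q`.
* `sq_mem`, `comm_mem`, `mul_conj_mem`, `mul_conj_inv_mem`, `mem_of_odd`;
* `list_conj_mem` : a product of an even number of conjugates of one isometry;
* `det_eq_one`;
* `list_refl_mem`, `invol_mem` : a product of an even number of reflections in vectors of norm `c`;
* `pair_mem` : `g` commuting with `n`, `m`, where `n² = 1`, `n m = - m n` on `[V, g]`.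
-/

set_option autoImplicit false
set_option linter.unusedSectionVars false

open QuadraticMap Module Cfsg.Agent.LieClassical.OrthCore Cfsg.Agent.LieClassical.OrthTrans

namespace Cfsg.Agent.H10.Co3.Om

/-- a product of an even number of elements of `S` when `S S ⊆ E` -/
theorem list_even {G : Type*} [Group G] (E : Subgroup G) (S : Set G) (hS : ∀ x ∈ S, ∀ y ∈ S, x * y ∈ E) :
    ∀ l : List G, (∀ x ∈ l, x ∈ S) → Even l.length → l.prod ∈ E
  | [], _, _ => by rw [List.prod_nil]; exact E.one_mem
  | [a], _, h => by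
      exfalso
      rw [List.length_singleton] at h
      exact absurd h (by decide)
  | a :: b :: l, hl, h => by
      rw [List.prod_cons, List.prod_cons, ← mul_assoc]
      refine E.mul_mem (hS a (hl a (by simp)) b (hl b (by simp))) (list_even E S hS l (fun x hx => hl x (by simp [hx])) ?_)
      rw [List.length_cons, List.length_cons] at h
      obtain ⟨k, hk⟩ := h
      exact ⟨k - 1, by omega⟩

variable {F V : Type*} [Field F] [AddCommGroup V] [Module F V] {Q : QuadraticForm F V}

theorem finiteDimensional (hG : Good Q) : FiniteDimensional F V :=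
  Module.finite_of_finrank_pos (by have := hG.dim; omega)

open scoped commutatorElement in
/-- commutators of isometries -/
theorem comm_mem (hG : Good Q) {a b : V ≃ₗ[F] V} (ha : a ∈ O Q) (hb : b ∈ O Q) : a * b * a⁻¹ * b⁻¹ ∈ E Q := by
  rw [← commutatorElement_def]
  exact hG.commutator_le_E (Subgroup.commutator_mem_commutator ha hb)

/-- **OM1**: squares of isometries -/
theorem sq_mem (hG : Good Q) {g : V ≃ₗ[F] V} (hg : g ∈ O Q) : g * g ∈ E Q := by
  haveI := finiteDimensional hG
  have key : ∀ g ∈ Subgroup.closure (reflSet Q ∪ siegelSet Q), g * g ∈ E Q := by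
    intro g hg
    induction hg using Subgroup.closure_induction with
    | mem x hx =>
      rcases hx with ⟨v, hv, rfl⟩ | ⟨u, w, hu, hw, rfl⟩
      · rw [refl_mul_self]; exact (E Q).one_mem
      · exact (E Q).mul_mem (siegel_mem_E hu hw) (siegel_mem_E hu hw)
    | one => rw [mul_one]; exact (E Q).one_mem
    | mul x y hx hy hxx hyy =>
      rw [← O_eq_closure hG.nondeg] at hx hy
      have h1 := comm_mem hG ((O Q).inv_mem hx) hy
      have e : x * y * (x * y) = (x * x) * (x⁻¹ * y * x⁻¹⁻¹ * y⁻¹) * (y * y) := by group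
      rw [e]
      exact (E Q).mul_mem ((E Q).mul_mem hxx h1) hyy
    | inv x hx hxx =>
      have e : x⁻¹ * x⁻¹ = (x * x)⁻¹ := by group
      rw [e]
      exact (E Q).inv_mem hxx
  rw [O_eq_closure hG.nondeg] at hg
  exact key g hg

/-- **OM2** -/
theorem mul_conj_inv_mem (hG : Good Q) {g h : V ≃ₗ[F] V} (hg : g ∈ O Q) (hh : h ∈ O Q) :
    g * (h * g * h⁻¹)⁻¹ ∈ E Q := by
  have e : g * (h * g * h⁻¹)⁻¹ = g * h * g⁻¹ * h⁻¹ := by group
  rw [e]
  exact comm_mem hG hg hh

/-- **OM2'** -/
theorem mul_conj_mem (hG : Good Q) {g h : V ≃ₗ[F] V} (hg : g ∈ O Q) (hh : h ∈ O Q) :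
    g * (h * g * h⁻¹) ∈ E Q := by
  have e : g * (h * g * h⁻¹) = (g * g) * (g⁻¹ * h * g⁻¹⁻¹ * h⁻¹) := by group
  rw [e]
  exact (E Q).mul_mem (sq_mem hG hg) (comm_mem hG ((O Q).inv_mem hg) hh)

/-- `a b ∈ E Q → b a ∈ E Q` -/
theorem mul_comm_mem (hG : Good Q) {a b : V ≃ₗ[F] V} (ha : a ∈ O Q) (hb : b ∈ O Q) (h : a * b ∈ E Q) :
    b * a ∈ E Q := by
  have e : b * a = (b * a * b⁻¹ * a⁻¹) * (a * b) := by group
  rw [e]
  exact (E Q).mul_mem (comm_mem hG hb ha) h

/-- isometries of odd order -/
theorem mem_of_odd (hG : Good Q) {g : V ≃ₗ[F] V} (hg : g ∈ O Q) {n : ℕ} (hn : Odd n) (h : g ^ n = 1) : g ∈ E Q := by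
  obtain ⟨k, hk⟩ := hn
  have h1 : g = g ^ (k + 1) * g ^ (k + 1) := by
    rw [← pow_add, show k + 1 + (k + 1) = n + 1 by omega, pow_succ, h, one_mul]
  rw [h1]
  exact sq_mem hG ((O Q).pow_mem hg _)

/-- **OM3**: a product of an even number of conjugates of one isometry -/
theorem list_conj_mem (hG : Good Q) {g : V ≃ₗ[F] V} (hg : g ∈ O Q) (l : List (V ≃ₗ[F] V))
    (hl : ∀ x ∈ l, ∃ h ∈ O Q, x = h * g * h⁻¹) (he : Even l.length) : l.prod ∈ E Q := by
  refine list_even (E Q) {x | ∃ h ∈ O Q, x = h * g * h⁻¹} ?_ l hl he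
  rintro _ ⟨h, hh, rfl⟩ _ ⟨k, hk, rfl⟩
  have e : h * g * h⁻¹ * (k * g * k⁻¹) = h * (g * ((h⁻¹ * k) * g * (h⁻¹ * k)⁻¹)) * h⁻¹ := by group
  rw [e]
  exact conj_mem_E hh (mul_conj_mem hG hg ((O Q).mul_mem ((O Q).inv_mem hh) hk))

/-- two mutually conjugate blocks -/
theorem halves_mem (hG : Good Q) {g h m : V ≃ₗ[F] V} (hh : h ∈ O Q) (hm : m ∈ O Q) (e : g = h * (m * h * m⁻¹)) :
    g ∈ E Q := by
  rw [e]
  exact mul_conj_mem hG hh hm

/-- **OM4** -/
theorem det_eq_one' (hG : Good Q) {g : V ≃ₗ[F] V} (hg : g ∈ E Q) : LinearEquiv.det g = 1 := by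
  rw [← hG.commutator_eq_E] at hg
  have h1 : ⁅O Q, O Q⁆ ≤ (LinearEquiv.det : (V ≃ₗ[F] V) →* Fˣ).ker :=
    (Subgroup.commutator_mono le_top le_top).trans (Abelianization.commutator_subset_ker _)
  exact h1 hg

/-- **OM4** -/
theorem det_eq_one (hG : Good Q) {g : V ≃ₗ[F] V} (hg : g ∈ E Q) : LinearMap.det (g : V →ₗ[F] V) = 1 := by
  have h1 := congrArg Units.val (det_eq_one' hG hg)
  rwa [LinearEquiv.coe_det] at h1

/-- a product of an even number of reflections in vectors of norm `c` -/
theorem list_refl_mem (hG : Good Q) {c : F} (l : List (V ≃ₗ[F] V))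
    (hl : ∀ x ∈ l, ∃ (v : V) (hv : Q v ≠ 0), Q v = c ∧ x = refl Q v hv) (he : Even l.length) : l.prod ∈ E Q := by
  refine list_even (E Q) {x | ∃ (v : V) (hv : Q v ≠ 0), Q v = c ∧ x = refl Q v hv} ?_ l hl he
  rintro _ ⟨v, hv, h1, rfl⟩ _ ⟨w, hw, h2, rfl⟩
  exact hG.refl_mul_refl_mem hw hv (h2.trans h1.symm)

/-- the product of the reflections in orthogonal vectors of norm `c` -/
theorem list_refl_apply {ι : Type*} [DecidableEq ι] {e : ι → V} {c : F} (hc : c ≠ 0) (he : ∀ i, Q (e i) = c)
    (hp : ∀ i j, i ≠ j → polar Q (e i) (e j) = 0) :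
    ∀ l : List ι, l.Nodup → ∀ v : V,
      ((l.map (fun i => refl Q (e i) (by rw [he i]; exact hc))).prod) v =
        v - (l.map (fun i => (c⁻¹ * polar Q (e i) v) • e i)).sum
  | [], _, v => by simp
  | i :: l, hl, v => by
      rw [List.nodup_cons] at hl
      rw [List.map_cons, List.prod_cons, LinearEquiv.mul_apply, list_refl_apply hc he hp l hl.2 v, refl_apply, List.map_cons,
        List.sum_cons, he i]
      have h1 : polar Q (e i) ((l.map (fun i => (c⁻¹ * polar Q (e i) v) • e i)).sum) = 0 := by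
        have h2 : ∀ l' : List ι, i ∉ l' → polar Q (e i) ((l'.map (fun i => (c⁻¹ * polar Q (e i) v) • e i)).sum) = 0 := by
          intro l'
          induction l' with
          | nil => intro _; simp [polar]
          | cons j l' ih =>
            intro hj
            rw [List.mem_cons, not_or] at hj
            rw [List.map_cons, List.sum_cons, polar_add_right, polar_smul_right, hp i j hj.1, smul_zero, zero_add,
              ih hj.2]
        exact h2 l hl.1
      rw [polar_sub_right, h1, sub_zero]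
      abel

/-- **OM5**: an involution which is `-1` on an even number of orthogonal vectors of norm `c ≠ 0` and `1` on their
orthogonal complement. -/
theorem invol_mem (hG : Good Q) (h2 : (2 : F) ≠ 0) {ι : Type*} [Fintype ι] {e : ι → V} {c : F} (hc : c ≠ 0)
    (he : ∀ i, Q (e i) = c) (hp : ∀ i j, i ≠ j → polar Q (e i) (e j) = 0) (hcard : Even (Fintype.card ι))
    {t : V ≃ₗ[F] V} (ht : ∀ i, t (e i) = - e i) (hf : ∀ v, (∀ i, polar Q (e i) v = 0) → t v = v) : t ∈ E Q := by
  classical
  have hne : ∀ i, Q (e i) ≠ 0 := fun i => by rw [he i]; exact hc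
  have hpii : ∀ i, polar Q (e i) (e i) = 2 * c := fun i => by rw [polar_self', he i]
  have key : t = ((Finset.univ : Finset ι).toList.map (fun i => refl Q (e i) (hne i))).prod := by
    ext v
    rw [list_refl_apply hc he hp _ (Finset.nodup_toList _) v, Finset.sum_map_toList]
    set s : V := ∑ i, ((2 * c)⁻¹ * polar Q (e i) v) • e i with hs
    have hts : t s = - s := by
      rw [hs, map_sum, ← Finset.sum_neg_distrib]
      refine Finset.sum_congr rfl fun i _ => ?_
      rw [map_smul, ht i, smul_neg]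
    have hvs : t (v - s) = v - s := by
      apply hf
      intro j
      rw [polar_sub_right, hs]
      have h3 : polar Q (e j) (∑ i, ((2 * c)⁻¹ * polar Q (e i) v) • e i) = polar Q (e j) v := by
        have h4 : polar Q (e j) (∑ i, ((2 * c)⁻¹ * polar Q (e i) v) • e i) =
            ∑ i, polar Q (e j) (((2 * c)⁻¹ * polar Q (e i) v) • e i) := by
          have h5 := map_sum (polarBilin Q (e j)) (fun i => ((2 * c)⁻¹ * polar Q (e i) v) • e i) Finset.univ
          exact h5
        rw [h4, Finset.sum_eq_single j]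
        · rw [polar_smul_right, hpii j, smul_eq_mul]
          field_simp
        · intro i _ hij
          rw [polar_smul_right, hp j i hij.symm, smul_zero]
        · intro h; exact absurd (Finset.mem_univ j) h
      rw [h3, sub_self]
    have h5 : t v = v - s - s := by
      have h6 : v = (v - s) + s := by abel
      conv_lhs => rw [h6]
      rw [map_add, hvs, hts]
      abel
    have h7 : (∑ i, (c⁻¹ * polar Q (e i) v) • e i) = s + s := by
      rw [hs, ← Finset.sum_add_distrib]
      refine Finset.sum_congr rfl fun i _ => ?_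
      rw [← add_smul]
      congr 1
      field_simp
      ring
    rw [h5, h7]
    abel
  rw [key]
  refine list_refl_mem hG (c := c) _ ?_ ?_
  · intro x hx
    obtain ⟨i, _, rfl⟩ := List.mem_map.1 hx
    exact ⟨e i, hne i, he i, rfl⟩
  · rw [List.length_map, Finset.length_toList, Finset.card_univ]
    exact hcard

end Cfsg.Agent.H10.Co3.Om
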