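import Mathlib
import Cfsg.Agent.H10.Co3.Om

/-!
# S1920, rows `POmega`: membership in `E Q`, continued (helper10)

* `pair_mem` : `g` commuting with isometries `n`, `m`, where `n² = 1`, `m n = - n m` on `[V, g]`;
* `rot_mem` : `g` with `g² = -1` on `[V, g]`, `4 ∣ dim [V, g]`, finite field of odd characteristic.
-/

set_option autoImplicit false
set_option linter.unusedSectionVars false

open QuadraticMap Module Cfsg.Agent.LieClassical.OrthCore Cfsg.Agent.LieClassical.OrthTrans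

namespace Cfsg.Agent.H10.Co3.Om

variable {F V : Type*} [Field F] [AddCommGroup V] [Module F V] {Q : QuadraticForm F V}

/-- the map `v ↦ v + ½ (1 + n) (g v - v)` -/
def halfLin (g n : V ≃ₗ[F] V) : V →ₗ[F] V :=
  LinearMap.id + (2 : F)⁻¹ • ((LinearMap.id + (n : V →ₗ[F] V)) ∘ₗ ((g : V →ₗ[F] V) - LinearMap.id))

theorem halfLin_apply (g n : V ≃ₗ[F] V) (v : V) :
    halfLin g n v = v + (2 : F)⁻¹ • ((g v - v) + n (g v - v)) := rfl

theorem halfLin_iso (h2 : (2 : F) ≠ 0) {g n : V ≃ₗ[F] V} (hg : g ∈ O Q) (hn : n ∈ O Q) (gn : g * n = n * g)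
    (hnn : ∀ v, n (n (g v - v)) = g v - v) (v : V) : Q (halfLin g n v) = Q v := by
  have hgn : ∀ x, g (n x) = n (g x) := fun x => LinearEquiv.congr_fun gn x
  rw [halfLin_apply]
  obtain ⟨w, hw⟩ : ∃ w, g v = v + w := ⟨g v - v, by abel⟩
  have hw' : g v - v = w := by rw [hw]; abel
  have hnw : n (n w) = w := by rw [← hw']; exact hnn v
  rw [hw', Q_add, QuadraticMap.map_smul, Q_add w (n w), mem_O.1 hn w, polar_smul_right, polar_add_right]
  have e1 : Q w = - polar Q v w := by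
    have h1 := mem_O.1 hg v
    rw [hw, Q_add] at h1
    linear_combination h1
  have e2 : polar Q w (n w) + 2 * polar Q v (n w) = 0 := by
    have h1 : polar Q (g v) (n (g v)) = polar Q v (n v) := by rw [← hgn, polar_map hg]
    have h3 : polar Q v (n w) = polar Q (n v) w := by rw [← polar_map hn v (n w), hnw]
    rw [hw, map_add, polar_add_left, polar_add_right, polar_add_right] at h1
    rw [polar_comm Q w (n v)] at h1
    linear_combination h1 + h3
  simp only [smul_eq_mul]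
  field_simp
  linear_combination e1 * 2 + e2

theorem exists_half (hG : Good Q) (h2 : (2 : F) ≠ 0) {g n : V ≃ₗ[F] V} (hg : g ∈ O Q) (hn : n ∈ O Q)
    (gn : g * n = n * g) (hnn : ∀ v, n (n (g v - v)) = g v - v) :
    ∃ h ∈ O Q, ∀ v, h v = v + (2 : F)⁻¹ • ((g v - v) + n (g v - v)) := by
  have := finiteDimensional hG
  have hiso := halfLin_iso h2 hg hn gn hnn
  have hpol : ∀ x y, polar Q (halfLin g n x) (halfLin g n y) = polar Q x y := by
    intro x y
    rw [polar, polar, ← map_add, hiso, hiso, hiso]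
  have hinj : Function.Injective (halfLin g n) := by
    rw [← LinearMap.ker_eq_bot, LinearMap.ker_eq_bot']
    intro x hx
    refine hG.nondeg x fun y => ?_
    rw [← hpol, hx]
    simp [polar]
  exact ⟨LinearEquiv.ofInjectiveEndo (halfLin g n) hinj, fun v => hiso v, fun v => rfl⟩

/-- **One anticommuting pair on `[V, g]` is enough.** -/
theorem pair_mem (hG : Good Q) (h2 : (2 : F) ≠ 0) {g n m : V ≃ₗ[F] V} (hg : g ∈ O Q) (hn : n ∈ O Q) (hm : m ∈ O Q)
    (gn : g * n = n * g) (gm : g * m = m * g) (hnn : ∀ v, n (n (g v - v)) = g v - v)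
    (hnm : ∀ v, m (n (g v - v)) = - n (m (g v - v))) : g ∈ E Q := by
  have hgn : ∀ x, g (n x) = n (g x) := fun x => LinearEquiv.congr_fun gn x
  have hgm : ∀ x, g (m x) = m (g x) := fun x => LinearEquiv.congr_fun gm x
  obtain ⟨h, hh, hv⟩ := exists_half hG h2 hg hn gn hnn
  refine halves_mem hG hh hm ?_
  ext v
  change g v = h (m (h (m⁻¹ v)))
  obtain ⟨x, rfl⟩ := m.surjective v
  have e0 : m⁻¹ (m x) = x := m.symm_apply_apply x
  rw [e0, hv x]
  -- `m (h x) = m x + ½ (w - n w)`, `w = g (m x) - m x`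
  obtain ⟨w, hw⟩ : ∃ w, w = g (m x) - m x := ⟨_, rfl⟩
  have e1 : m (g x - x) = w := by rw [map_sub, ← hgm, hw]
  have e2 : m (x + (2 : F)⁻¹ • ((g x - x) + n (g x - x))) = m x + (2 : F)⁻¹ • (w - n w) := by
    rw [map_add, map_smul, map_add, hnm x, e1]
    congr 2
    abel
  rw [e2, hv]
  obtain ⟨w2, hw2⟩ : ∃ w2, w2 = g w - w := ⟨_, rfl⟩
  have e3 : g (m x + (2 : F)⁻¹ • (w - n w)) - (m x + (2 : F)⁻¹ • (w - n w)) = w + (2 : F)⁻¹ • (w2 - n w2) := by
    rw [map_add, map_smul, map_sub, hgn, hw2, map_sub n]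
    have : g (m x) = w + m x := by rw [hw]; abel
    rw [this]
    module
  have e4 : n (n w2) = w2 := by rw [hw2]; exact hnn w
  rw [e3, map_add n, map_smul n, map_sub n, e4]
  have e5 : g (m x) = m x + w := by rw [hw]; abel
  rw [e5]
  have h3 : (2 : F)⁻¹ + (2 : F)⁻¹ = 1 := by field_simp; norm_num
  have h4 : w = ((2 : F)⁻¹ + (2 : F)⁻¹) • w := by rw [h3, one_smul]
  conv_lhs => rw [h4]
  module

/-! ### Rotations -/

theorem exists_sq_add_sq [Finite F] (h2 : (2 : F) ≠ 0) (c : F) : ∃ a b : F, a * a + b * b = c := by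
  have : Fintype F := Fintype.ofFinite F
  have hodd : Fintype.card F % 2 = 1 := by
    apply FiniteField.odd_card_of_char_ne_two
    intro h
    exact h2 (by exact_mod_cast (ringChar.spec F 2).2 (by rw [h]))
  obtain ⟨a, b, h⟩ := FiniteField.exists_root_sum_quadratic (R := F) (f := Polynomial.X ^ 2 - Polynomial.C c)
    (g := Polynomial.X ^ 2)
    (Polynomial.degree_X_pow_sub_C (by norm_num) _) (Polynomial.degree_X_pow 2) hodd
  refine ⟨a, b, ?_⟩
  simp only [Polynomial.eval_sub, Polynomial.eval_pow, Polynomial.eval_X, Polynomial.eval_C] at h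
  linear_combination h

/-- the plane rotations `x ↦ y ↦ -x`, `Q x = Q y = 1` -/
def RotSet (Q : QuadraticForm F V) : Set (V ≃ₗ[F] V) :=
  {r | ∃ (u x : V) (hu : Q u ≠ 0) (hx : Q x ≠ 0), Q u = 2 ∧ Q x = 1 ∧ r = refl Q u hu * refl Q x hx}

theorem rotSet_mul_mem (hG : Good Q) : ∀ r ∈ RotSet Q, ∀ s ∈ RotSet Q, r * s ∈ E Q := by
  rintro _ ⟨u, x, hu, hx, hu2, hx1, rfl⟩ _ ⟨u', x', hu', hx', hu2', hx1', rfl⟩
  set a := refl Q u hu
  set b := refl Q x hx
  set c := refl Q u' hu'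
  set d := refl Q x' hx'
  have ha : a ∈ O Q := refl_mem_O hu
  have hb : b ∈ O Q := refl_mem_O hx
  have hc : c ∈ O Q := refl_mem_O hu'
  have e : a * b * (c * d) = (a * c) * (c⁻¹ * b * c⁻¹⁻¹ * b⁻¹) * (b * d) := by group
  rw [e]
  exact (E Q).mul_mem ((E Q).mul_mem (hG.refl_mul_refl_mem hu' hu (hu2'.trans hu2.symm))
    (comm_mem hG ((O Q).inv_mem hc) hb)) (hG.refl_mul_refl_mem hx' hx (hx1'.trans hx1.symm))

/-- `[V, g]` -/
def rg (g : V ≃ₗ[F] V) : Submodule F V := LinearMap.range ((g : V →ₗ[F] V) - LinearMap.id)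

theorem mem_rg {g : V ≃ₗ[F] V} {w : V} : w ∈ rg g ↔ ∃ v, g v - v = w := Iff.rfl

section Step

variable {g : V ≃ₗ[F] V} (hg : g ∈ O Q) (hr : ∀ v, g (g (g v - v)) = -(g v - v))

include hr in
theorem sq_rg {w : V} (hw : w ∈ rg g) : g (g w) = - w := by
  obtain ⟨v, rfl⟩ := mem_rg.1 hw
  exact hr v

include hr in
theorem map_rg {w : V} (hw : w ∈ rg g) : g w ∈ rg g := by
  obtain ⟨v, rfl⟩ := mem_rg.1 hw
  exact mem_rg.2 ⟨g v, by rw [map_sub]⟩

include hg hr in
theorem polar_rg (h2 : (2 : F) ≠ 0) {w : V} (hw : w ∈ rg g) : polar Q w (g w) = 0 := by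
  have h1 : polar Q (g w) (g (g w)) = polar Q w (g w) := polar_map hg _ _
  rw [sq_rg hr hw, polar_neg_right, polar_comm Q (g w) w] at h1
  have h3 : (2 : F) * polar Q w (g w) = 0 := by linear_combination -h1
  exact (mul_eq_zero.1 h3).resolve_left h2

include hg hr in
theorem exists_nonsing_rg (hG : Good Q) (h2 : (2 : F) ≠ 0) (hne : rg g ≠ ⊥) : ∃ w ∈ rg g, Q w ≠ 0 := by
  by_contra hcon
  push Not at hcon
  obtain ⟨w, hw, hw0⟩ := Submodule.exists_mem_ne_zero_of_ne_bot hne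
  refine hw0 (hG.nondeg w fun v => ?_)
  have h3 : ∀ v' ∈ rg g, polar Q w v' = 0 := by
    intro v' hv'
    rw [polar, hcon _ ((rg g).add_mem hw hv'), hcon _ hw, hcon _ hv']
    ring
  -- the two parts of `2 v`
  have hW : v - g (g v) ∈ rg g := by
    have e : v - g (g v) = -((g (g v) - g v) + (g v - v)) := by abel
    rw [e]
    exact (rg g).neg_mem ((rg g).add_mem (mem_rg.2 ⟨g v, rfl⟩) (mem_rg.2 ⟨v, rfl⟩))
  have hF : polar Q w (v + g (g v)) = 0 := by
    have hfix : g (v + g (g v)) = v + g (g v) := by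
      have h4 := hr v
      rw [map_sub, map_sub] at h4
      rw [map_add]
      have h5 : g (g (g v)) = g (g v) - (g v - v) := by
        rw [sub_eq_iff_eq_add] at h4
        rw [h4]
        abel
      rw [h5]
      abel
    have h4 : polar Q (g (g w)) (g (g (v + g (g v)))) = polar Q w (v + g (g v)) := by
      rw [polar_map hg, polar_map hg]
    rw [hfix, hfix, sq_rg hr hw, polar_neg_left] at h4
    have h5 : (2 : F) * polar Q w (v + g (g v)) = 0 := by linear_combination -h4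
    exact (mul_eq_zero.1 h5).resolve_left h2
  have h4 := h3 _ hW
  rw [polar_add_right] at hF
  rw [polar_sub_right] at h4
  have h5 : (2 : F) * polar Q w v = 0 := by linear_combination h4 + hF
  exact (mul_eq_zero.1 h5).resolve_left h2

include hg hr in
theorem exists_norm_one [Finite F] (hG : Good Q) (h2 : (2 : F) ≠ 0) (hne : rg g ≠ ⊥) : ∃ w ∈ rg g, Q w = 1 := by
  obtain ⟨w, hw, hQw⟩ := exists_nonsing_rg hg hr hG h2 hne
  obtain ⟨a, b, hab⟩ := exists_sq_add_sq h2 (Q w)⁻¹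
  refine ⟨a • w + b • g w, (rg g).add_mem ((rg g).smul_mem _ hw) ((rg g).smul_mem _ (map_rg hr hw)), ?_⟩
  rw [Q_add, QuadraticMap.map_smul, QuadraticMap.map_smul, polar_smul_left, polar_smul_right, polar_rg hg hr h2 hw,
    mem_O.1 hg]
  simp only [smul_eq_mul]
  have : a * a * Q w + b * b * Q w = 1 := by rw [← add_mul, hab, inv_mul_cancel₀ hQw]
  linear_combination this

end Step

/-- one step: split off a plane rotation -/
theorem rot_step (h2 : (2 : F) ≠ 0) [FiniteDimensional F V] {g : V ≃ₗ[F] V} (hg : g ∈ O Q)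
    (hr : ∀ v, g (g (g v - v)) = -(g v - v)) {x : V} (hx : x ∈ rg g) (hx1 : Q x = 1) :
    ∃ r ∈ RotSet Q, ∃ g' ∈ O Q, g = r * g' ∧ (∀ v, g' (g' (g' v - v)) = -(g' v - v)) ∧
      finrank F (rg g) = finrank F (rg g') + 2 := by
  have hgg : g (g x) = - x := sq_rg hr hx
  have hpx : polar Q x (g x) = 0 := polar_rg hg hr h2 hx
  have hpx' : polar Q (g x) x = 0 := by rw [polar_comm]; exact hpx
  have hgx1 : Q (g x) = 1 := by rw [mem_O.1 hg, hx1]
  have hpxx : polar Q x x = 2 := by rw [polar_self', hx1, mul_one]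
  have hpgg : polar Q (g x) (g x) = 2 := by rw [polar_self', hgx1, mul_one]
  have hu2 : Q (x + g x) = 2 := by rw [Q_add, hx1, hgx1, hpx]; norm_num
  have hx0 : Q x ≠ 0 := by rw [hx1]; exact one_ne_zero
  have hu0 : Q (x + g x) ≠ 0 := by rw [hu2]; exact h2
  set r : V ≃ₗ[F] V := refl Q (x + g x) hu0 * refl Q x hx0 with hrdef
  have hrO : r ∈ O Q := (O Q).mul_mem (refl_mem_O hu0) (refl_mem_O hx0)
  have hr1 : r x = g x := by
    rw [hrdef, LinearEquiv.mul_apply, refl_apply hx0, refl_apply, hx1, hpxx, hu2]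
    rw [polar_sub_right, polar_smul_right, polar_add_left, hpxx, hpx', smul_eq_mul]
    have : (2 : F)⁻¹ * (2 + 0 - 1⁻¹ * 2 * (2 + 0)) = -1 := by field_simp; norm_num
    rw [this]
    module
  have hr2 : r (g x) = - x := by
    rw [hrdef, LinearEquiv.mul_apply, refl_apply hx0, refl_apply, hx1, hpx, hu2, mul_zero, zero_smul, sub_zero,
      polar_add_left, hpx, hpgg, zero_add, inv_mul_cancel₀ h2, one_smul]
    abel
  have hr3 : ∀ y, polar Q x y = 0 → polar Q (g x) y = 0 → r y = y := by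
    intro y h1 h3
    rw [hrdef, LinearEquiv.mul_apply, refl_apply hx0, refl_apply, h1, mul_zero, zero_smul, sub_zero,
      polar_add_left, h1, h3, add_zero, mul_zero, zero_smul, sub_zero]
  obtain ⟨g', hg'⟩ : ∃ g', g' = r⁻¹ * g := ⟨_, rfl⟩
  have hg'O : g' ∈ O Q := by rw [hg']; exact (O Q).mul_mem ((O Q).inv_mem hrO) hg
  have hinv : ∀ a b, r a = b → r⁻¹ b = a := by
    rintro a _ rfl
    exact r.symm_apply_apply a
  have h1' : g' x = x := by rw [hg']; exact hinv _ _ hr1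
  have h2' : g' (g x) = g x := by
    rw [hg']
    change r⁻¹ (g (g x)) = g x
    rw [hgg]
    exact hinv _ _ hr2
  have hperp : ∀ y, polar Q x y = 0 → polar Q (g x) y = 0 → polar Q x (g y) = 0 ∧ polar Q (g x) (g y) = 0 := by
    intro y h1 h3
    refine ⟨?_, by rw [polar_map hg, h1]⟩
    have h4 : polar Q (g (g x)) (g y) = polar Q (g x) y := polar_map hg _ _
    rw [hgg, polar_neg_left, h3] at h4
    linear_combination -h4
  have h3' : ∀ y, polar Q x y = 0 → polar Q (g x) y = 0 → g' y = g y := by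
    intro y h1 h3
    rw [hg']
    exact hinv _ _ (hr3 _ (hperp y h1 h3).1 (hperp y h1 h3).2)
  -- decomposition
  have hdec : ∀ v, ∃ y, polar Q x y = 0 ∧ polar Q (g x) y = 0 ∧ g' v - v = g y - y := by
    intro v
    obtain ⟨α, hα⟩ : ∃ α, α = (2 : F)⁻¹ * polar Q x v := ⟨_, rfl⟩
    obtain ⟨β, hβ⟩ : ∃ β, β = (2 : F)⁻¹ * polar Q (g x) v := ⟨_, rfl⟩
    obtain ⟨y, hy⟩ : ∃ y, y = v - α • x - β • g x := ⟨_, rfl⟩
    have hy1 : polar Q x y = 0 := by
      rw [hy, polar_sub_right, polar_sub_right, polar_smul_right, polar_smul_right, hpxx, hpx, smul_eq_mul, smul_eq_mul,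
        hα]
      field_simp
      ring
    have hy2 : polar Q (g x) y = 0 := by
      rw [hy, polar_sub_right, polar_sub_right, polar_smul_right, polar_smul_right, hpgg, hpx', smul_eq_mul, smul_eq_mul,
        hβ]
      field_simp
      ring
    refine ⟨y, hy1, hy2, ?_⟩
    have hv : v = y + α • x + β • g x := by rw [hy]; abel
    have hgv : g' v = g' y + α • x + β • g x := by
      rw [hv, map_add, map_add, map_smul, map_smul, h1', h2']
    rw [hgv, ← h3' y hy1 hy2, hv]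
    abel
  have hr' : ∀ v, g' (g' (g' v - v)) = -(g' v - v) := by
    intro v
    obtain ⟨y, hy1, hy2, hy⟩ := hdec v
    have h5 := hperp y hy1 hy2
    have h6 : polar Q x (g y - y) = 0 := by rw [polar_sub_right, h5.1, hy1, sub_zero]
    have h7 : polar Q (g x) (g y - y) = 0 := by rw [polar_sub_right, h5.2, hy2, sub_zero]
    have h8 := hperp _ h6 h7
    rw [hy, h3' _ h6 h7, h3' _ h8.1 h8.2, hr]
  refine ⟨r, ⟨x + g x, x, hu0, hx0, hu2, hx1, rfl⟩, g', hg'O, by rw [hg']; group, hr', ?_⟩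
  -- dimension
  let ψ : rg g →ₗ[F] F × F := ((polarBilin Q x).prod (polarBilin Q (g x))).domRestrict (rg g)
  have hψ : ∀ w : rg g, ψ w = (polar Q x w, polar Q (g x) w) := fun w => rfl
  have hsurj : LinearMap.range ψ = ⊤ := by
    rw [LinearMap.range_eq_top]
    rintro ⟨a, b⟩
    refine ⟨⟨((2 : F)⁻¹ * a) • x + ((2 : F)⁻¹ * b) • g x,
      (rg g).add_mem ((rg g).smul_mem _ hx) ((rg g).smul_mem _ (map_rg hr hx))⟩, ?_⟩
    rw [hψ]
    simp only [polar_add_right, polar_smul_right, hpxx, hpx, hpx', hpgg, smul_eq_mul]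
    ext
    · field_simp
      simp
    · field_simp
      simp
  have hker : (LinearMap.ker ψ).map (rg g).subtype = rg g' := by
    ext w
    constructor
    · rintro ⟨w, hw, rfl⟩
      have hw' : ψ w = 0 := hw
      rw [hψ, Prod.mk_eq_zero] at hw'
      obtain ⟨hw1, hw2⟩ := hw'
      change (w : V) ∈ rg g'
      have h9 := hperp _ hw1 hw2
      refine mem_rg.2 ⟨-((2 : F)⁻¹ • (g w + w)), ?_⟩
      have hy1 : polar Q x (-((2 : F)⁻¹ • (g w + w))) = 0 := by
        rw [polar_neg_right, polar_smul_right, polar_add_right, h9.1, hw1]; simp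
      have hy2 : polar Q (g x) (-((2 : F)⁻¹ • (g w + w))) = 0 := by
        rw [polar_neg_right, polar_smul_right, polar_add_right, h9.2, hw2]; simp
      rw [h3' _ hy1 hy2, map_neg, map_smul, map_add, sq_rg hr w.2]
      have h3 : (2 : F)⁻¹ + (2 : F)⁻¹ = 1 := by field_simp; norm_num
      have h4 : (w : V) = ((2 : F)⁻¹ + (2 : F)⁻¹) • (w : V) := by rw [h3, one_smul]
      conv_rhs => rw [h4]
      module
    · intro hw
      obtain ⟨v, rfl⟩ := mem_rg.1 hw
      obtain ⟨y, hy1, hy2, hy⟩ := hdec v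
      rw [hy]
      have h5 := hperp y hy1 hy2
      refine ⟨⟨g y - y, mem_rg.2 ⟨y, rfl⟩⟩, ?_, rfl⟩
      change ψ _ = 0
      rw [hψ, Prod.mk_eq_zero]
      refine ⟨?_, ?_⟩
      · change polar Q x (g y - y) = 0
        rw [polar_sub_right, h5.1, hy1, sub_zero]
      · change polar Q (g x) (g y - y) = 0
        rw [polar_sub_right, h5.2, hy2, sub_zero]
  have h9 := LinearMap.finrank_range_add_finrank_ker ψ
  rw [hsurj, finrank_top, Module.finrank_prod, Module.finrank_self] at h9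
  rw [← hker, Submodule.finrank_map_subtype_eq]
  omega

theorem rot_list [Finite F] (hG : Good Q) (h2 : (2 : F) ≠ 0) :
    ∀ n : ℕ, ∀ g : V ≃ₗ[F] V, g ∈ O Q → (∀ v, g (g (g v - v)) = -(g v - v)) → finrank F (rg g) = n →
      ∃ l : List (V ≃ₗ[F] V), (∀ r ∈ l, r ∈ RotSet Q) ∧ 2 * l.length = n ∧ l.prod = g := by
  have := finiteDimensional hG
  intro n
  induction n using Nat.strong_induction_on with
  | _ n ih =>
    intro g hg hr hn
    by_cases hbot : rg g = ⊥
    · refine ⟨[], by simp, ?_, ?_⟩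
      · rw [← hn, hbot, finrank_bot]; rfl
      · rw [List.prod_nil]
        ext v
        have h1 : g v - v ∈ rg g := mem_rg.2 ⟨v, rfl⟩
        rw [hbot, Submodule.mem_bot, sub_eq_zero] at h1
        exact h1.symm
    · obtain ⟨x, hx, hx1⟩ := exists_norm_one hg hr hG h2 hbot
      obtain ⟨r, hrS, g', hg', e, hr', hdim⟩ := rot_step h2 hg hr hx hx1
      obtain ⟨l, hl, hlen, hprod⟩ := ih (finrank F (rg g')) (by omega) g' hg' hr' rfl
      refine ⟨r :: l, ?_, ?_, ?_⟩
      · intro s hs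
        rcases List.mem_cons.1 hs with rfl | hs
        · exact hrS
        · exact hl s hs
      · rw [List.length_cons]
        omega
      · rw [List.prod_cons, hprod, e]

/-- **OM6**: `g² = -1` on `[V, g]`, and `4 ∣ dim [V, g]`. -/
theorem rot_mem [Finite F] (hG : Good Q) (h2 : (2 : F) ≠ 0) {g : V ≃ₗ[F] V} (hg : g ∈ O Q)
    (hr : ∀ v, g (g (g v - v)) = -(g v - v)) (hd : 4 ∣ finrank F (rg g)) : g ∈ E Q := by
  obtain ⟨l, hl, hlen, rfl⟩ := rot_list hG h2 _ g hg hr rfl
  refine list_even (E Q) (RotSet Q) (rotSet_mul_mem hG) l hl ?_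
  obtain ⟨k, hk⟩ := hd
  exact ⟨k, by omega⟩

/-- **OM6'**: `V = W + W'`, `g² = -1` on the invariant subspace `W`, `g = 1` on `W'`, `4 ∣ dim W`. -/
theorem rot_mem' [Finite F] (hG : Good Q) (h2 : (2 : F) ≠ 0) {g : V ≃ₗ[F] V} (hg : g ∈ O Q) (W W' : Submodule F V)
    (hWW : W ⊔ W' = ⊤) (hgW : ∀ w ∈ W, g w ∈ W) (hW : ∀ w ∈ W, g (g w) = - w) (hW' : ∀ w ∈ W', g w = w)
    (hd : 4 ∣ finrank F W) : g ∈ E Q := by
  have hrg : rg g = W := by
    ext w
    constructor
    · intro hw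
      obtain ⟨v, rfl⟩ := mem_rg.1 hw
      have hv : v ∈ W ⊔ W' := by rw [hWW]; exact Submodule.mem_top
      obtain ⟨a, ha, b, hb, rfl⟩ := Submodule.mem_sup.1 hv
      rw [map_add, hW' b hb]
      have e : g a + b - (a + b) = g a - a := by abel
      rw [e]
      exact W.sub_mem (hgW a ha) ha
    · intro hw
      refine mem_rg.2 ⟨-((2 : F)⁻¹ • (g w + w)), ?_⟩
      rw [map_neg, map_smul, map_add, hW w hw]
      have h3 : (2 : F)⁻¹ + (2 : F)⁻¹ = 1 := by field_simp; norm_num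
      have h4 : w = ((2 : F)⁻¹ + (2 : F)⁻¹) • w := by rw [h3, one_smul]
      conv_rhs => rw [h4]
      module
  refine rot_mem hG h2 hg ?_ (by rw [hrg]; exact hd)
  intro v
  have h1 : g v - v ∈ W := by rw [← hrg]; exact mem_rg.2 ⟨v, rfl⟩
  exact hW _ h1

end Cfsg.Agent.H10.Co3.Om
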